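import Cfsg.Agent.GTwoRows.ONFin
import Cfsg.Agent.S2140
import Cfsg.Agent.H209.IF.Kill
import Cfsg.Agent.H999.IF.EngB
import Cfsg.Agent.H399.IF.ON

/-!
# S5719, the row `O'N` (helper403)

For an involution `t` of `A` the subgroup `M = 4·L₃(4)` of index 2 in `C(t)` lies in `A`, because `|M : M ∩ A| ≤ 19` and
`L₃(4)` has no proper subgroup of index less than 21.  So `A` contains the elements of order 3 and the commutators of
`C(t)`; the relations of the presentation then put the generators `a, …, f` and their conjugates under `g` into `A`.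

`killE_on` : no `IF` in `O'N` with `|A|` even; `row_on` : the row (odd order: helper399).
-/

set_option autoImplicit false
set_option maxRecDepth 100000

namespace Cfsg.Agent.H403.Fx.ONan

open Subgroup Cfsg
open Cfsg.Agent.H209.Fxy
open Cfsg.Spor (ON)
open Cfsg.Spor.ON (Gen)
open Cfsg.Agent.SporadicB.ON45Word (on)
open Cfsg.Agent.KFacts.MulSpor.ON (w w_append w_one w_cons w_iw iw)
open Cfsg.Agent.KFacts.ON.Cent (hON finite_ON cen card_K0 card_cent)
open Cfsg.Agent.KFacts.ON.Words Cfsg.Agent.KFacts.ON.Struct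
open Cfsg.Agent.ONType
open Cfsg.Agent.ONType.TupK (K0)
open scoped commutatorElement

/-! ### The cascade -/

section cascade

variable {G : Type*} [Group G]

theorem inv_of_sq {x : G} (h : x * x = 1) : x⁻¹ = x := inv_eq_of_mul_eq_one_right h

theorem pow3 {x y : G} (h : (x * y) ^ 3 = 1) : (x * y) * (x * y) * (x * y) = 1 := by
  rw [← h, pow_succ, pow_two]

theorem comm_mul {x y t : G} (hx : x * t = t * x) (hy : y * t = t * y) : (x * y) * t = t * (x * y) := by
  rw [mul_assoc, hy, ← mul_assoc, hx, mul_assoc]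

theorem comm_conj {x t g : G} (h : x * t = t * x) : (g⁻¹ * x * g) * (g⁻¹ * t * g) = (g⁻¹ * t * g) * (g⁻¹ * x * g) := by
  calc (g⁻¹ * x * g) * (g⁻¹ * t * g) = g⁻¹ * (x * t) * g := by group
    _ = g⁻¹ * (t * x) * g := by rw [h]
    _ = _ := by group

/-- **The cascade.** -/
theorem cascade [Finite G] [IsSimpleGroup G] (A : Subgroup G)
    (h3 : ∀ t ∈ A, t * t = 1 → t ≠ 1 → ∀ x, x * t = t * x → x * x * x = 1 → x ∈ A)
    (hc : ∀ t ∈ A, t * t = 1 → t ≠ 1 → ∀ x y, x * t = t * x → y * t = t * y → x * y * x⁻¹ * y⁻¹ ∈ A)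
    {a b c d e f g : G} (aa : a * a = 1) (bb : b * b = 1) (cc : c * c = 1) (dd : d * d = 1) (ee : e * e = 1)
    (ff : f * f = 1) (ab : (a * b) ^ 3 = 1) (bc : (b * c) ^ 3 = 1) (de : (d * e) ^ 3 = 1) (ef : (e * f) ^ 3 = 1)
    (ac : a * c = c * a) (ad : a * d = d * a) (ae : a * e = e * a) (af : a * f = f * a) (bd : b * d = d * b)
    (be : b * e = e * b) (bf : b * f = f * b) (ce : c * e = e * c) (cf : c * f = f * c) (df : d * f = f * d)
    (g2 : g * g = a * f) (cd4 : (c * d) ^ 4 = a * f) (ha1 : a ≠ 1) (hf1 : f ≠ 1) (hc1 : c ≠ 1) (hd1 : d ≠ 1)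
    (hdf : d * f ≠ 1) (haf : a * f ≠ 1)
    (hgen : closure ({a, b, c, d, e, f, g} : Set G) = ⊤) (haA : a ∈ A) : A = ⊤ := by
  have deA : d * e ∈ A := h3 a haA aa ha1 _ (comm_mul ad.symm ae.symm) (pow3 de)
  have efA : e * f ∈ A := h3 a haA aa ha1 _ (comm_mul ae.symm af.symm) (pow3 ef)
  have dfA : d * f ∈ A := by
    have h := A.mul_mem deA efA
    rwa [show d * e * (e * f) = d * (e * e) * f by group, ee, mul_one] at h
  have dfs : (d * f) * (d * f) = 1 := by
    rw [show (d * f) * (d * f) = d * (f * d) * f by group, ← df, show d * (d * f) * f = (d * d) * (f * f) by group, dd, ff,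
      mul_one]
  have abA : a * b ∈ A := h3 _ dfA dfs hdf _
    (comm_mul (comm_mul ad.symm af.symm).symm (comm_mul bd.symm bf.symm).symm) (pow3 ab)
  have bA : b ∈ A := (A.mul_mem_cancel_left haA).1 abA
  have cdecA : c * (d * e) * c ∈ A := by
    refine h3 a haA aa ha1 _ (comm_mul (comm_mul ac.symm (comm_mul ad.symm ae.symm)) ac.symm) ?_
    have h := pow3 de
    calc c * (d * e) * c * (c * (d * e) * c) * (c * (d * e) * c)
        = c * (d * e) * (c * c) * (d * e) * (c * c) * (d * e) * c := by group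
      _ = c * ((d * e) * (d * e) * (d * e)) * c := by rw [cc]; group
      _ = 1 := by rw [h, mul_one, cc]
  have cd2A : c * d * (c * d) ∈ A := by
    have h := A.mul_mem cdecA (A.inv_mem deA)
    have h1 : c * (d * e) * c * (d * e)⁻¹ = c * d * (c * d) := by
      rw [mul_inv_rev, inv_of_sq dd, inv_of_sq ee]
      calc c * (d * e) * c * (e * d) = c * d * (e * c) * e * d := by group
        _ = c * d * (c * e) * e * d := by rw [ce]
        _ = c * d * c * (e * e) * d := by group
        _ = _ := by rw [ee]; group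
    rwa [h1] at h
  have afA : a * f ∈ A := by
    have h := A.mul_mem cd2A cd2A
    have h1 : c * d * (c * d) * (c * d * (c * d)) = (c * d) ^ 4 := by
      rw [show (4 : ℕ) = 2 + 2 from rfl, pow_add, pow_two]
    rwa [h1, cd4] at h
  have fA : f ∈ A := (A.mul_mem_cancel_left haA).1 afA
  have eA : e ∈ A := (A.mul_mem_cancel_right fA).1 efA
  have dA : d ∈ A := (A.mul_mem_cancel_right eA).1 deA
  have bcA : b * c ∈ A := h3 f fA ff hf1 _ (comm_mul bf cf) (pow3 bc)
  have cA : c ∈ A := (A.mul_mem_cancel_left bA).1 bcA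
  -- the conjugates under `g`
  have afs : (a * f) * (a * f) = 1 := by
    rw [show (a * f) * (a * f) = a * (f * a) * f by group, ← af, show a * (a * f) * f = (a * a) * (f * f) by group, aa, ff,
      mul_one]
  have gz : g⁻¹ * (a * f) = (a * f) * g⁻¹ := by
    rw [← g2]
    group
  have cz : c * (a * f) = (a * f) * c := by
    -- `c` inverts `c d`
    have h1 : c * (c * d) ^ 4 * c⁻¹ = ((c * d) ^ 4)⁻¹ := by
      rw [← conj_pow, ← inv_pow]
      congr 1
      rw [mul_inv_rev, inv_of_sq cc, inv_of_sq dd]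
      calc c * (c * d) * c = (c * c) * d * c := by group
        _ = d * c := by rw [cc, one_mul]
    rw [cd4, inv_of_sq afs, mul_inv_eq_iff_eq_mul] at h1
    exact h1
  have dz : d * (a * f) = (a * f) * d := (comm_mul ad df.symm).symm
  have az : a * (a * f) = (a * f) * a := (comm_mul rfl af.symm).symm
  have fz : f * (a * f) = (a * f) * f := (comm_mul af rfl).symm
  have conjA : ∀ x : G, x ∈ A → x * (a * f) = (a * f) * x → g⁻¹ * x * g ∈ A := by
    intro x hx hxz
    have h := hc _ afA afs haf g⁻¹ x gz hxz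
    rw [inv_inv] at h
    exact (A.mul_mem_cancel_right (A.inv_mem hx)).1 h
  have cgA := conjA c cA cz
  have dgA := conjA d dA dz
  have agA := conjA a haA az
  have fgA := conjA f fA fz
  have sqc : ∀ x : G, x * x = 1 → (g⁻¹ * x * g) * (g⁻¹ * x * g) = 1 := by
    intro x hx
    calc (g⁻¹ * x * g) * (g⁻¹ * x * g) = g⁻¹ * (x * x) * g := by group
      _ = 1 := by rw [hx]; group
  have nec : ∀ x : G, x ≠ 1 → g⁻¹ * x * g ≠ 1 := by
    intro x hx h
    apply hx
    calc x = g * (g⁻¹ * x * g) * g⁻¹ := by group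
      _ = 1 := by rw [h]; group
  have cubec : ∀ x y : G, (x * y) ^ 3 = 1 → (g⁻¹ * (x * y) * g) * (g⁻¹ * (x * y) * g) * (g⁻¹ * (x * y) * g) = 1 := by
    intro x y hx
    calc (g⁻¹ * (x * y) * g) * (g⁻¹ * (x * y) * g) * (g⁻¹ * (x * y) * g) = g⁻¹ * ((x * y) * (x * y) * (x * y)) * g := by
          group
      _ = 1 := by rw [pow3 hx]; group
  have efgA : g⁻¹ * (e * f) * g ∈ A := h3 _ cgA (sqc c cc) (nec c hc1) _
    (comm_conj (comm_mul ce.symm cf.symm)) (cubec e f ef)
  have abgA : g⁻¹ * (a * b) * g ∈ A := h3 _ dgA (sqc d dd) (nec d hd1) _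
    (comm_conj (comm_mul ad bd)) (cubec a b ab)
  have egA : g⁻¹ * e * g ∈ A := by
    have h1 : g⁻¹ * (e * f) * g = (g⁻¹ * e * g) * (g⁻¹ * f * g) := by group
    rw [h1] at efgA
    exact (A.mul_mem_cancel_right fgA).1 efgA
  have bgA : g⁻¹ * b * g ∈ A := by
    have h1 : g⁻¹ * (a * b) * g = (g⁻¹ * a * g) * (g⁻¹ * b * g) := by group
    rw [h1] at abgA
    exact (A.mul_mem_cancel_left agA).1 abgA
  -- the normal subgroup
  set D : Set G := {a, b, c, d, e, f} with hD
  set N : Subgroup G := closure (D ∪ (fun x => g⁻¹ * x * g) '' D) with hN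
  have hDA : ∀ x ∈ D, x ∈ A := by
    rintro x (rfl | rfl | rfl | rfl | rfl | rfl) <;> assumption
  have hDgA : ∀ x ∈ D, g⁻¹ * x * g ∈ A := by
    rintro x (rfl | rfl | rfl | rfl | rfl | rfl) <;> assumption
  have hNA : N ≤ A := by
    rw [hN, closure_le]
    rintro x (hx | ⟨y, hy, rfl⟩)
    · exact hDA x hx
    · exact hDgA y hy
  have hDN : ∀ x ∈ D, x ∈ N := fun x hx => subset_closure (Or.inl hx)
  have aN : a ∈ N := hDN a (Or.inl rfl)
  have fN : f ∈ N := hDN f (by simp [hD])
  have hgN : ∀ x ∈ N, g⁻¹ * x * g ∈ N := by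
    have h1 : N ≤ N.comap (MulAut.conj g⁻¹).toMonoidHom := by
      conv_lhs => rw [hN]
      rw [closure_le]
      have hm : ∀ x : G, x ∈ N.comap (MulAut.conj g⁻¹).toMonoidHom ↔ g⁻¹ * x * g ∈ N := by
        intro x
        rw [mem_comap]
        show g⁻¹ * x * g⁻¹⁻¹ ∈ N ↔ _
        rw [inv_inv]
      rintro x (hx | ⟨y, hy, rfl⟩)
      · rw [SetLike.mem_coe, hm]
        exact subset_closure (Or.inr ⟨x, hx, rfl⟩)
      · rw [SetLike.mem_coe, hm]
        have h2 : g⁻¹ * ((fun x => g⁻¹ * x * g) y) * g = (a * f)⁻¹ * y * (a * f) := by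
          rw [← g2]
          simp only
          group
        rw [h2]
        exact N.mul_mem (N.mul_mem (N.inv_mem (N.mul_mem aN fN)) (hDN y hy)) (N.mul_mem aN fN)
    intro x hx
    have h2 := h1 hx
    rw [mem_comap] at h2
    have h3 : (MulAut.conj g⁻¹).toMonoidHom x = g⁻¹ * x * g⁻¹⁻¹ := rfl
    rwa [h3, inv_inv] at h2
  have hgN' : ∀ x ∈ N, g * x * g⁻¹ ∈ N := by
    intro x hx
    have h1 : g * x * g⁻¹ = (a * f) * (g⁻¹ * x * g) * (a * f)⁻¹ := by
      rw [← g2]
      group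
    rw [h1]
    exact N.mul_mem (N.mul_mem (N.mul_mem aN fN) (hgN x hx)) (N.inv_mem (N.mul_mem aN fN))
  have hnorm : normalizer (N : Set G) = ⊤ := by
    rw [eq_top_iff, ← hgen, closure_le]
    have hin : ∀ x ∈ N, x ∈ (normalizer (N : Set G) : Subgroup G) := fun x hx => le_normalizer hx
    have hgm : g ∈ (normalizer (N : Set G) : Subgroup G) := by
      rw [mem_normalizer_iff]
      intro x
      constructor
      · exact hgN' x
      · intro hx
        have h1 := hgN _ hx
        rwa [show g⁻¹ * (g * x * g⁻¹) * g = x by group] at h1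
    rintro x (rfl | rfl | rfl | rfl | rfl | rfl | rfl)
    · exact hin _ aN
    · exact hin _ (hDN _ (by simp [hD]))
    · exact hin _ (hDN _ (by simp [hD]))
    · exact hin _ (hDN _ (by simp [hD]))
    · exact hin _ (hDN _ (by simp [hD]))
    · exact hin _ fN
    · exact hgm
  have hnN : N.Normal := normalizer_eq_top_iff.1 hnorm
  rcases hnN.eq_bot_or_eq_top with h | h
  · exact absurd ((mem_bot).1 (h ▸ aN)) ha1
  · exact top_le_iff.1 (h ▸ hNA)

end cascade

/-! ### The subgroup `J = 4·L₃(4)` has no proper subgroup of index less than 21 -/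

theorem noidx {H : Subgroup ↥J} (hH : H.index < 21) : H = ⊤ := by
  have := finite_ON
  obtain ⟨F, _, _, hF, ⟨e⟩⟩ := GTwoRows.ONQuot.quot GTwoRows.h1170
  let π : ↥J →* Matrix.ProjectiveSpecialLinearGroup (Fin 3) F := e.toMonoidHom.comp (QuotientGroup.mk' (center ↥J))
  have hπ : Function.Surjective π := e.surjective.comp (QuotientGroup.mk'_surjective _)
  have hker : ∀ x : ↥J, π x = 1 → x ∈ center ↥J := by
    intro x hx
    have h1 : e (QuotientGroup.mk' (center ↥J) x) = e 1 := by rw [map_one]; exact hx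
    exact (QuotientGroup.eq_one_iff x).1 (e.injective h1)
  have htop : H.map π = ⊤ := by
    by_contra hne
    have h1 := (S2140.result hF 3 le_rfl (by omega)).1 (H.map π) hne
    have h2 : (H.map π).index ∣ H.index := Subgroup.index_map_dvd H hπ
    have h3 : (H.map π).index ≤ H.index := Nat.le_of_dvd (Nat.pos_of_ne_zero H.index_ne_zero_of_finite) h2
    norm_num at h1
    omega
  have hdec : ∀ x : ↥J, ∃ h ∈ H, ∃ z ∈ center ↥J, x = h * z := by
    intro x
    have h1 : π x ∈ H.map π := by rw [htop]; exact mem_top _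
    obtain ⟨h, hh, he⟩ := h1
    refine ⟨h, hh, h⁻¹ * x, hker _ ?_, by group⟩
    rw [map_mul, map_inv, he, inv_mul_cancel]
  have hle : J ≤ H.map J.subtype := by
    conv_lhs => rw [← perf]
    rw [commutator_le]
    intro x hx y hy
    obtain ⟨h, hh, z, hz, h1⟩ := hdec ⟨x, hx⟩
    obtain ⟨h', hh', z', hz', h2⟩ := hdec ⟨y, hy⟩
    refine ⟨⁅h, h'⁆, ?_, ?_⟩
    · rw [commutatorElement_def]
      exact H.mul_mem (H.mul_mem (H.mul_mem hh hh') (H.inv_mem hh)) (H.inv_mem hh')
    · have h3 : ⁅(⟨x, hx⟩ : ↥J), ⟨y, hy⟩⁆ = ⁅h, h'⁆ := by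
        rw [h1, h2, commutatorElement_def, commutatorElement_def]
        have hz1 := mem_center_iff.1 hz
        have hz2 := mem_center_iff.1 hz'
        calc h * z * (h' * z') * (h * z)⁻¹ * (h' * z')⁻¹
            = h * (z * h') * z' * z⁻¹ * h⁻¹ * z'⁻¹ * h'⁻¹ := by group
          _ = h * (h' * z) * z' * z⁻¹ * h⁻¹ * z'⁻¹ * h'⁻¹ := by rw [hz1 h']
          _ = h * h' * (z * z') * z⁻¹ * h⁻¹ * z'⁻¹ * h'⁻¹ := by group
          _ = h * h' * (z' * z) * z⁻¹ * h⁻¹ * z'⁻¹ * h'⁻¹ := by rw [hz2 z]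
          _ = h * h' * (z' * h⁻¹) * z'⁻¹ * h'⁻¹ := by group
          _ = h * h' * (h⁻¹ * z') * z'⁻¹ * h'⁻¹ := by rw [hz2 h⁻¹]
          _ = h * h' * h⁻¹ * h'⁻¹ := by group
      rw [← h3]
      rfl
  rw [eq_top_iff]
  rintro ⟨x, hx⟩ -
  obtain ⟨y, hy, he⟩ := hle hx
  have h1 : y = ⟨x, hx⟩ := Subtype.ext he
  rwa [h1] at hy

theorem J_le_of {A : Subgroup ON} (h : A.relIndex J < 21) : J ≤ A := by
  have h1 : A.subgroupOf J = ⊤ := noidx h
  exact subgroupOf_eq_top.1 h1

/-! ### Squares and commutators in `C(f)` -/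

theorem sq_mem {x : ON} (hx : x * on .f = on .f * x) : x * x ∈ J := by
  rw [← mem_K0] at hx
  rcases mem_J_or hx with h | h
  · exact J.mul_mem h h
  · have h1 := J_normal (k := on .d) d_mem h
    have h2 := J.mul_mem h h1
    have h3 : x * on .d * (on .d * (x * on .d) * (on .d)⁻¹) = x * (on .d * on .d) * x := by group
    rwa [h3, dd, mul_one] at h2

theorem comm_mem {x y : ON} (hx : x * on .f = on .f * x) (hy : y * on .f = on .f * y) : x * y * x⁻¹ * y⁻¹ ∈ J := by
  have h1 : (x * y) * on .f = on .f * (x * y) := comm_mul hx hy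
  have hxi : x⁻¹ * on .f = on .f * x⁻¹ := by
    rw [inv_mul_eq_iff_eq_mul, ← mul_assoc, hx, mul_inv_cancel_right]
  have hyi : y⁻¹ * on .f = on .f * y⁻¹ := by
    rw [inv_mul_eq_iff_eq_mul, ← mul_assoc, hy, mul_inv_cancel_right]
  have e1 := sq_mem h1
  have e2 := sq_mem hxi
  have e3 := sq_mem hyi
  -- `x y x⁻¹ y⁻¹ = (x y)² · (y⁻¹ x⁻² y) · y⁻²`
  have h2 : x * y * x⁻¹ * y⁻¹ = (x * y * (x * y)) * (y⁻¹ * (x⁻¹ * x⁻¹) * y⁻¹⁻¹) * (y⁻¹ * y⁻¹) := by group
  rw [h2]
  exact J.mul_mem (J.mul_mem e1 (J_normal (mem_K0.2 hyi) e2)) e3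

/-! ### The generators -/

theorem wrel (l : List Gen) (h : Cfsg.Agent.KFacts.MulSpor.ON.okw (l ++ iw []) = true) : w l = 1 := by
  have h1 := Cfsg.Agent.KFacts.ON.Words.eq l [] h
  simpa [w] using h1

theorem rel_cc : on .c * on .c = 1 := by simpa [w] using wrel [.c, .c] (by decide +kernel)
theorem rel_ee : on .e * on .e = 1 := by simpa [w] using wrel [.e, .e] (by decide +kernel)
theorem rel_ab : (on .a * on .b) ^ 3 = 1 := by
  simpa [w, pow_succ, mul_assoc] using wrel [.a, .b, .a, .b, .a, .b] (by decide +kernel)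
theorem rel_bc : (on .b * on .c) ^ 3 = 1 := by
  simpa [w, pow_succ, mul_assoc] using wrel [.b, .c, .b, .c, .b, .c] (by decide +kernel)
theorem rel_de : (on .d * on .e) ^ 3 = 1 := by
  simpa [w, pow_succ, mul_assoc] using wrel [.d, .e, .d, .e, .d, .e] (by decide +kernel)
theorem rel_ef : (on .e * on .f) ^ 3 = 1 := by
  simpa [w, pow_succ, mul_assoc] using wrel [.e, .f, .e, .f, .e, .f] (by decide +kernel)
theorem rel_ac : on .a * on .c = on .c * on .a := by simpa [w] using Cfsg.Agent.KFacts.ON.Words.eq [.a, .c] [.c, .a] (by decide +kernel)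
theorem rel_ad : on .a * on .d = on .d * on .a := by simpa [w] using Cfsg.Agent.KFacts.ON.Words.eq [.a, .d] [.d, .a] (by decide +kernel)
theorem rel_ae : on .a * on .e = on .e * on .a := by simpa [w] using Cfsg.Agent.KFacts.ON.Words.eq [.a, .e] [.e, .a] (by decide +kernel)
theorem rel_af : on .a * on .f = on .f * on .a := by simpa [w] using Cfsg.Agent.KFacts.ON.Words.eq [.a, .f] [.f, .a] (by decide +kernel)
theorem rel_bd : on .b * on .d = on .d * on .b := by simpa [w] using Cfsg.Agent.KFacts.ON.Words.eq [.b, .d] [.d, .b] (by decide +kernel)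
theorem rel_be : on .b * on .e = on .e * on .b := by simpa [w] using Cfsg.Agent.KFacts.ON.Words.eq [.b, .e] [.e, .b] (by decide +kernel)
theorem rel_bf : on .b * on .f = on .f * on .b := by simpa [w] using Cfsg.Agent.KFacts.ON.Words.eq [.b, .f] [.f, .b] (by decide +kernel)
theorem rel_ce : on .c * on .e = on .e * on .c := by simpa [w] using Cfsg.Agent.KFacts.ON.Words.eq [.c, .e] [.e, .c] (by decide +kernel)
theorem rel_cf : on .c * on .f = on .f * on .c := by simpa [w] using Cfsg.Agent.KFacts.ON.Words.eq [.c, .f] [.f, .c] (by decide +kernel)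
theorem rel_df : on .d * on .f = on .f * on .d := by simpa [w] using Cfsg.Agent.KFacts.ON.Words.eq [.d, .f] [.f, .d] (by decide +kernel)
theorem rel_gg : on .g * on .g = on .a * on .f := by simpa [w] using Cfsg.Agent.KFacts.ON.Words.eq [.g, .g] [.a, .f] (by decide +kernel)
theorem rel_cd : (on .c * on .d) ^ 4 = on .a * on .f := by
  simpa [w, pow_succ, mul_assoc] using Cfsg.Agent.KFacts.ON.Words.eq [.c, .d, .c, .d, .c, .d, .c, .d] [.a, .f] (by decide +kernel)

theorem ne_a : on .a ≠ 1 := by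
  have h : TupRow.neJ [5] [] = true := by decide +kernel
  simpa [SporadicRecognition.CosetCert.ev_cons, SporadicRecognition.CosetCert.ev_nil, TupRow.gJ] using TupRow.neJ_spec h

theorem ne_c : on .c ≠ 1 := by
  have h : TupRow.neJ [0] [] = true := by decide +kernel
  simpa [SporadicRecognition.CosetCert.ev_cons, SporadicRecognition.CosetCert.ev_nil, TupRow.gJ] using TupRow.neJ_spec h

theorem ne_d : on .d ≠ 1 := by
  have h : TupRow.neJ [1] [] = true := by decide +kernel
  simpa [SporadicRecognition.CosetCert.ev_cons, SporadicRecognition.CosetCert.ev_nil, TupRow.gJ] using TupRow.neJ_spec h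

theorem ne_df : on .d * on .f ≠ 1 := by
  have h : TupRow.neJ [1, 7] [] = true := by decide +kernel
  have h1 := TupRow.neJ_spec h
  simp only [SporadicRecognition.CosetCert.ev_cons, SporadicRecognition.CosetCert.ev_nil, mul_one] at h1
  exact h1

theorem ne_af : on .a * on .f ≠ 1 := by
  have h : TupRow.neJ [5, 7] [] = true := by decide +kernel
  have h1 := TupRow.neJ_spec h
  simp only [SporadicRecognition.CosetCert.ev_cons, SporadicRecognition.CosetCert.ev_nil, mul_one] at h1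
  exact h1

theorem gen : closure ({on .a, on .b, on .c, on .d, on .e, on .f, on .g} : Set ON) = ⊤ := by
  rw [eq_top_iff]
  have h : closure (Set.range (PresentedGroup.of (rels := Cfsg.Spor.coxRelators Cfsg.Spor.ON.edges ∪
      {r | r ∈ Cfsg.Spor.ON.extra}))) = ⊤ := PresentedGroup.closure_range_of _
  intro x _
  have hx : x ∈ closure (Set.range (PresentedGroup.of (rels := Cfsg.Spor.coxRelators Cfsg.Spor.ON.edges ∪
      {r | r ∈ Cfsg.Spor.ON.extra}))) := by rw [h]; exact mem_top _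
  refine closure_mono ?_ hx
  rintro _ ⟨y, rfl⟩
  have h1 : (PresentedGroup.of (rels := Cfsg.Spor.coxRelators Cfsg.Spor.ON.edges ∪
      {r | r ∈ Cfsg.Spor.ON.extra}) y) = on y := rfl
  rw [h1]
  cases y <;> simp

theorem gen_top [Finite ON] [IsSimpleGroup ON] (A : Subgroup ON)
    (h3 : ∀ t ∈ A, t * t = 1 → t ≠ 1 → ∀ x, x * t = t * x → x * x * x = 1 → x ∈ A)
    (hc : ∀ t ∈ A, t * t = 1 → t ≠ 1 → ∀ x y, x * t = t * x → y * t = t * y → x * y * x⁻¹ * y⁻¹ ∈ A)
    (haA : on .a ∈ A) : A = ⊤ :=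
  cascade A h3 hc aa bb rel_cc dd rel_ee ff rel_ab rel_bc rel_de rel_ef rel_ac rel_ad rel_ae rel_af rel_bd rel_be
    rel_bf rel_ce rel_cf rel_df rel_gg rel_cd ne_a f_ne_one ne_c ne_d ne_df ne_af gen haA

/-! ### The involutions of `A` -/

theorem nonab : ∃ x y : ON, x * y ≠ y * x := by
  by_contra h
  push Not at h
  exact v_ne_inv (by rw [← vd, h (on .d) v, mul_inv_cancel_right])

theorem index_cent [Finite ON] : (centralizer ({on .f} : Set ON)).index = 2857239 := by
  have h := Subgroup.card_mul_index (centralizer ({on .f} : Set ON))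
  rw [card_cent, hON.2] at h
  omega

/-- `J ≤ A` if `f ∈ A` -/
theorem J_le_A [Finite ON] [IsSimpleGroup ON] {A : Subgroup ON} {Γ : Subgroup (MulAut ON)} (h : IF A Γ)
    (hf : on .f ∈ A) : J ≤ A := by
  have h2 : orderOf (on .f) = 2 := orderOf_eq_prime (by rw [sq, ff]) f_ne_one
  have hJ : J ≤ centralizer ({on .f} : Set ON) := by
    intro x hx
    rw [mem_centralizer_singleton_iff]
    exact mem_K0.1 (J_le hx)
  obtain ⟨-, -, -, -, h3⟩ := H999.IFB.IF.E2' h nonab hf h2
  have h4 := (h3 J hJ).1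
  rw [index_cent] at h4
  apply J_le_of
  by_contra hcon
  have h5 : 21 ^ 5 ≤ A.relIndex J ^ 5 := Nat.pow_le_pow_left (by omega) 5
  norm_num at h5
  omega

/-- the general involution of `A` -/
theorem inv_A [Finite ON] [IsSimpleGroup ON] {A : Subgroup ON} {Γ : Subgroup (MulAut ON)} (h : IF A Γ) {t : ON}
    (htA : t ∈ A) (ht : t * t = 1) (ht1 : t ≠ 1) :
    (∀ x, x * t = t * x → x * x ∈ A) ∧ ∀ x y, x * t = t * x → y * t = t * y → x * y * x⁻¹ * y⁻¹ ∈ A := by
  obtain ⟨g, hg⟩ := isConj_iff.1 (Cfsg.Agent.KFacts.ON.OneClass.one_class ht ht1)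
  have h' := h.map (MulAut.conj g)
  have hf : on .f ∈ A.map (MulAut.conj g).toMonoidHom := ⟨t, htA, hg⟩
  have hJ := J_le_A h' hf
  have hmem : ∀ x : ON, x ∈ A.map (MulAut.conj g).toMonoidHom → g⁻¹ * x * g ∈ A := by
    rintro _ ⟨y, hy, rfl⟩
    have h1 : g⁻¹ * ((MulAut.conj g).toMonoidHom y) * g = y := by
      show g⁻¹ * (g * y * g⁻¹) * g = y
      group
    rwa [h1]
  have hcomm : ∀ x, x * t = t * x → (g * x * g⁻¹) * on .f = on .f * (g * x * g⁻¹) := by
    intro x hx
    rw [← hg]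
    calc g * x * g⁻¹ * (g * t * g⁻¹) = g * (x * t) * g⁻¹ := by group
      _ = g * (t * x) * g⁻¹ := by rw [hx]
      _ = _ := by group
  constructor
  · intro x hx
    have h1 := hmem _ (hJ (sq_mem (hcomm x hx)))
    rwa [show g⁻¹ * (g * x * g⁻¹ * (g * x * g⁻¹)) * g = x * x by group] at h1
  · intro x y hx hy
    have h1 := hmem _ (hJ (comm_mem (hcomm x hx) (hcomm y hy)))
    rwa [show g⁻¹ * (g * x * g⁻¹ * (g * y * g⁻¹) * (g * x * g⁻¹)⁻¹ * (g * y * g⁻¹)⁻¹) * g = x * y * x⁻¹ * y⁻¹ by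
      group] at h1

/-- **No `IF` in `O'N` with `|A|` even.** -/
theorem killE_on : KillE ON := by
  intro A Γ h hev
  have hfin := finite_ON
  have hsim := hs
  obtain ⟨t, htA, ht⟩ := hev
  have htt : t * t = 1 := by rw [← pow_two, ← ht, pow_orderOf_eq_one]
  have ht1 : t ≠ 1 := by
    rintro rfl
    rw [orderOf_one] at ht
    omega
  obtain ⟨g, hg⟩ := isConj_iff.1 ((Cfsg.Agent.KFacts.ON.OneClass.one_class htt ht1).trans
    (Cfsg.Agent.KFacts.ON.OneClass.one_class aa ne_a).symm)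
  have h' := h.map (MulAut.conj g)
  have ha : on .a ∈ A.map (MulAut.conj g).toMonoidHom := ⟨t, htA, hg⟩
  refine h'.ne_top (gen_top _ ?_ ?_ ha)
  · intro s hsA hss hs1 x hx hx3
    have h1 := (inv_A h' hsA hss hs1).1 x hx
    have h2 := Subgroup.mul_mem _ h1 h1
    rwa [show x * x * (x * x) = x * x * x * x by group, hx3, one_mul] at h2
  · intro s hsA hss hs1
    exact (inv_A h' hsA hss hs1).2

/-- the row `O'N`, from the case of odd order -/
theorem row_on_of (hO : KillO ON) : Row fun T => Spor.IsoON T := by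
  refine Row.of_kill ?_
  rintro T _ _ _ - ⟨e⟩
  have := finite_ON
  exact Kill.congr e.symm (Kill.of killE_on hO)

/-- **the row `O'N` of S5719** (odd order: helper399) -/
theorem row_on : Row fun T => Spor.IsoON T := row_on_of H399.IF.ONJ.killO_ON

end Cfsg.Agent.H403.Fx.ONan
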